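import Mathlib
import Cfsg.Agent.Lib.Helper22.AG.Defs

/-!
# S3072 (AG) package [CONJL]: a chain conjugated by an element of `N(P)`
-/

set_option autoImplicit false

namespace Cfsg.Agent.Lib.Helper20.AG

open Cfsg Cfsg.Agent.Lib.Helper33 Cfsg.Agent.Lib.Helper22.AG

universe u

theorem gConj_cons {G : Type u} [Group G] (y : G) (t : Subgroup G × Subgroup G × G)
    (l : List (Subgroup G × Subgroup G × G)) :
    gConj y (t :: l) = (cj y t.1, cj y t.2.1, y * t.2.2 * y⁻¹) :: gConj y l := by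
  simp [gConj]

theorem pkgConjL (hConj : PkgConj.{u}) : PkgConjL.{u} := by
  intro G _ _ p _ P y l
  induction l with
  | nil =>
    intro B _ _
    refine ⟨gChain_nil _ _ _, ?_⟩
    simp [gConj, gprod]
  | cons t l ih =>
    intro B hy h
    rw [gChain_cons] at h
    have hB : rconj y (rconj (y * t.2.2 * y⁻¹) B) = rconj t.2.2 (rconj y B) := by
      rw [← rconj_mul, ← rconj_mul]
      congr 1
      group
    have ih' := ih (rconj (y * t.2.2 * y⁻¹) B) hy (by rw [hB]; exact h.2.2)
    rw [gConj_cons]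
    refine ⟨?_, ?_⟩
    · rw [gChain_cons]
      refine ⟨hConj P t.1 t.2.1 t.2.2 y hy h.1, ?_, ih'.1⟩
      intro b hb
      have h1 : y⁻¹ * b * y ∈ rconj y B := ⟨b, hb, rfl⟩
      exact mem_cj.2 (h.2.1 h1)
    · rw [gprod_cons, ih'.2, gprod_cons]
      group

end Cfsg.Agent.Lib.Helper20.AG
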