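import Mathlib
import Cfsg.Agent.Lib.Helper22.AG.Defs

/-!
# S3072 (AG) package [FIN]: from the list form of a chain to the `Fin`-indexed form
-/

set_option autoImplicit false

namespace Cfsg.Agent.Lib.Helper20.AG

open Cfsg Cfsg.Agent.Lib.Helper33 Cfsg.Agent.Lib.Helper22.AG

universe u

theorem gChain_getElem {G : Type u} [Group G] (p : ℕ) (P : Subgroup G)
    (l : List (Subgroup G × Subgroup G × G)) :
    ∀ A : Set G, GChain p P A l → ∀ (i : ℕ) (h : i < l.length),
      Link p P (l[i]).1 (l[i]).2.1 (l[i]).2.2 ∧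
        rconj (((l.map (fun t => t.2.2)).take i).prod) A ⊆ (((l[i]).1 : Subgroup G) : Set G) := by
  induction l with
  | nil =>
    intro A _ i h
    exact absurd h (by simp)
  | cons t l ih =>
    intro A h i hi
    rw [gChain_cons] at h
    cases i with
    | zero =>
      refine ⟨h.1, ?_⟩
      simp only [List.take_zero, List.prod_nil, rconj_one]
      exact h.2.1
    | succ j =>
      have hj : j < l.length := by simpa using hi
      have e : (((t :: l).map (fun t => t.2.2)).take (j + 1)).prod =
          t.2.2 * ((l.map (fun t => t.2.2)).take j).prod := by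
        simp [List.take_succ_cons]
      rw [e, rconj_mul]
      simpa using ih _ h.2.2 j hj

theorem pkgFin : PkgFin.{u} := by
  intro G _ p P A l hl
  have hofn : List.ofFn (fun i : Fin l.length => (l[(i : ℕ)]).2.2) = l.map (fun t => t.2.2) :=
    List.ofFn_getElem_eq_map l (fun t => t.2.2)
  refine ⟨l.length, fun i => (l[(i : ℕ)]).1, fun i => (l[(i : ℕ)]).2.1,
    fun i => (l[(i : ℕ)]).2.2, ?_, ?_⟩
  · rw [hofn]
    rfl
  · intro i
    obtain ⟨h1, h2⟩ := gChain_getElem p P l A hl i i.2
    refine ⟨h1, ?_⟩
    rw [hofn]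
    exact h2

end Cfsg.Agent.Lib.Helper20.AG
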