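import Mathlib
import Cfsg.Agent.Lib.Helper22.AG.Defs

/-!
# S3072 (AG) package [REV]: the reversed chain
-/

set_option autoImplicit false

namespace Cfsg.Agent.Lib.Helper20.AG

open Cfsg Cfsg.Agent.Lib.Helper33 Cfsg.Agent.Lib.Helper22.AG

universe u

variable {G : Type u} [Group G]

theorem gRev_cons (t : Subgroup G × Subgroup G × G) (l : List (Subgroup G × Subgroup G × G)) :
    gRev (t :: l) = gRev l ++ [(t.1, t.2.1, t.2.2⁻¹)] := by
  simp [gRev]

theorem gprod_gRev (l : List (Subgroup G × Subgroup G × G)) : gprod (gRev l) = (gprod l)⁻¹ := by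
  induction l with
  | nil => simp [gRev, gprod]
  | cons t l ih =>
    rw [gRev_cons, gprod_append, ih, gprod_cons, gprod_cons, gprod_nil]
    group

theorem link_inv {p : ℕ} {P H X : Subgroup G} {x : G} (h : Link p P H X x) :
    Link p P H X x⁻¹ :=
  ⟨h.1, h.2.1, inv_mem h.2.2⟩

theorem link_mem_normalizer {p : ℕ} {P H X : Subgroup G} {x : G} (h : Link p P H X x) :
    x ∈ Subgroup.normalizer (H : Set G) :=
  h.2.1.2.1 (Subgroup.map_subtype_le _ h.2.2)

theorem pkgRev : PkgRev.{u} := by
  intro G _ p P l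
  induction l with
  | nil =>
    intro A _
    exact ⟨gChain_nil _ _ _, gprod_gRev _⟩
  | cons t l ih =>
    intro A h
    rw [gChain_cons] at h
    refine ⟨?_, gprod_gRev _⟩
    rw [gRev_cons, gChain_append, gprod_cons, rconj_mul]
    refine ⟨(ih _ h.2.2).1, ?_⟩
    rw [gprod_gRev, rconj_inv_rconj, gChain_cons]
    exact ⟨link_inv h.1, rconj_subset_of_mem_normalizer (link_mem_normalizer h.1) h.2.1,
      gChain_nil _ _ _⟩

end Cfsg.Agent.Lib.Helper20.AG
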